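import Cfsg.Agent.H141.Rg.Act

/-!
# S5714: orbit counting for pairs `(x, v)` with a given annihilator
-/

set_option autoImplicit false

open Cfsg Polynomial Module Cfsg.Agent.H141.Rg

namespace Cfsg.Agent.H156.Rg

section count

variable {K V : Type*} [Field K] [AddCommGroup V] [Module K V] {Γ : Type*} [Group Γ]

/-- pairs with a given annihilator -/
abbrev Prs (τ : Γ →* (V →ₗ[K] V)) (g : K[X]) : Type _ := {p : Γ × V // Ann (τ p.1) p.2 g}

theorem aeval_apply_sum (y : V →ₗ[K] V) (v : V) (f : K[X]) :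
    aeval y f v = ∑ i ∈ Finset.range (f.natDegree + 1), f.coeff i • (y ^ i) v := by
  rw [aeval_eq_sum_range, LinearMap.sum_apply]
  rfl

theorem next_eq {g : K[X]} (hg : g.Monic) {y y' : V →ₗ[K] V} {v v' : V} (h : Ann y v g) (h' : Ann y' v' g)
    (ht : ∀ i < g.natDegree, (y ^ i) v = (y' ^ i) v') (i : ℕ) (hi : i ≤ g.natDegree) : (y ^ i) v = (y' ^ i) v' := by
  rcases hi.lt_or_eq with hi | rfl
  · exact ht i hi
  · have h1 := (h g).2 dvd_rfl
    have h2 := (h' g).2 dvd_rfl
    rw [aeval_apply_sum, Finset.sum_range_succ, hg.coeff_natDegree, one_smul] at h1 h2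
    rw [Finset.sum_congr rfl fun i hi => by rw [ht i (Finset.mem_range.1 hi)]] at h1
    exact add_left_cancel (h1.trans h2.symm)

theorem linInd {g : K[X]} {y : V →ₗ[K] V} {v : V} (h : Ann y v g) :
    LinearIndependent K fun i : Fin g.natDegree => (y ^ (i : ℕ)) v := by
  rw [Fintype.linearIndependent_iff]
  intro c hc i
  set f : K[X] := ∑ j : Fin g.natDegree, monomial (j : ℕ) (c j) with hf
  have h1 : aeval y f v = 0 := by
    rw [hf, map_sum, LinearMap.sum_apply, ← hc]
    refine Finset.sum_congr rfl fun j _ => ?_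
    rw [aeval_monomial, Module.End.mul_apply, Module.algebraMap_end_apply]
  have h2 : g ∣ f := (h f).1 h1
  have h3 : f = 0 := by
    by_contra h0
    have h4 := natDegree_le_of_dvd h2 h0
    have hpos : 0 < g.natDegree := i.pos
    have h5 : f.natDegree ≤ g.natDegree - 1 := by
      rw [hf]
      refine natDegree_sum_le_of_forall_le _ _ fun j _ => (natDegree_monomial_le _).trans ?_
      omega
    omega
  have h4 : f.coeff i = c i := by
    rw [hf, finsetSum_coeff]
    rw [Finset.sum_eq_single i]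
    · rw [coeff_monomial, if_pos rfl]
    · intro j _ hj
      rw [coeff_monomial, if_neg]
      exact fun e => hj (Fin.ext e)
    · intro h; exact absurd (Finset.mem_univ _) h
  rw [← h4, h3, coeff_zero]

theorem card_le [Finite V] [Finite Γ] {τ : Γ →* (V →ₗ[K] V)} {g : K[X]} (hg : g.Monic) {E : Type*} [Finite E]
    (φ : Prs τ g → E)
    (hφ : ∀ p p', φ p = φ p' → ∃ y : Γ, ∀ i < g.natDegree, τ y ((τ p.1.1 ^ i) p.1.2) = (τ p'.1.1 ^ i) p'.1.2) :
    Nat.card (Prs τ g) ≤ Nat.card E * Nat.card Γ := by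
  classical
  rcases isEmpty_or_nonempty (Prs τ g) with he | hne
  · rw [Nat.card_of_isEmpty]
    exact Nat.zero_le _
  let t : Prs τ g → (Fin g.natDegree → V) := fun p i => (τ p.1.1 ^ (i : ℕ)) p.1.2
  let k : Prs τ g → E × (Fin g.natDegree → V) := fun p => (φ p, t p)
  let s := Function.invFun k
  have hs : ∀ p, k (s (k p)) = k p := fun p => Function.invFun_eq ⟨p, rfl⟩
  let r := Function.invFun φ
  have hr : ∀ p, φ (r (φ p)) = φ p := fun p => Function.invFun_eq ⟨p, rfl⟩
  let Y : E × (Fin g.natDegree → V) → Γ := fun e =>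
    if h : ∃ y, ∀ i, τ y (t (r e.1) i) = e.2 i then h.choose else 1
  have hY : ∀ p i, τ (Y (k p)) (t (r (φ p)) i) = t p i := by
    intro p
    have h : ∃ y, ∀ i, τ y (t (r (k p).1) i) = (k p).2 i := by
      obtain ⟨y, hy⟩ := hφ (r (φ p)) p (hr p)
      exact ⟨y, fun i => hy i i.2⟩
    have h1 : Y (k p) = h.choose := dif_pos h
    rw [h1]
    exact h.choose_spec
  let Φ : Prs τ g → E × Γ := fun p => (φ p, (s (k p)).1.1⁻¹ * p.1.1 * Y (k p))
  have hz : ∀ p i, τ ((s (k p)).1.1⁻¹ * p.1.1 * Y (k p)) (t (r (φ p)) i) = t p i := by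
    intro p i
    have hst : t (s (k p)) = t p := congrArg Prod.snd (hs p)
    rw [map_mul, map_mul, Module.End.mul_apply, Module.End.mul_apply, hY]
    have h1 : τ p.1.1 (t p i) = τ (s (k p)).1.1 (t (s (k p)) i) := by
      have h2 := next_eq hg p.2 (s (k p)).2 (fun i hi => (congrFun hst ⟨i, hi⟩).symm) (i + 1) i.2
      rw [pow_succ', pow_succ'] at h2
      exact h2
    rw [h1, ← Module.End.mul_apply, ← map_mul, inv_mul_cancel, map_one, Module.End.one_apply, hst]
  have hinj : Function.Injective Φ := by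
    intro p p' hpp
    have h1 : φ p = φ p' := congrArg Prod.fst hpp
    have h2 : (s (k p)).1.1⁻¹ * p.1.1 * Y (k p) = (s (k p')).1.1⁻¹ * p'.1.1 * Y (k p') := congrArg Prod.snd hpp
    have h3 : t p = t p' := by
      funext i
      rw [← hz p i, ← hz p' i, h1, h2]
    have h4 : k p = k p' := Prod.ext h1 h3
    have h5 : p.1.1 = p'.1.1 := by
      rw [h4] at h2
      exact mul_left_cancel (mul_right_cancel h2)
    have h6 : p.1.2 = p'.1.2 := by
      rcases Nat.eq_zero_or_pos g.natDegree with h0 | h0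
      · have hg1 : g = 1 := hg.natDegree_eq_zero.1 h0
        have e1 := (p.2 1).2 (by rw [hg1])
        have e2 := (p'.2 1).2 (by rw [hg1])
        rw [map_one, Module.End.one_apply] at e1 e2
        rw [e1, e2]
      · have := congrFun h3 ⟨0, h0⟩
        simpa [t] using this
    exact Subtype.ext (Prod.ext h5 h6)
  have := Nat.card_le_card_of_injective Φ hinj
  rwa [Nat.card_prod] at this

end count

end Cfsg.Agent.H156.Rg
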