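import Cfsg.Agent.H156.Rg.Rec
import Cfsg.Agent.ClassicalGeometry.WittQuad
import Cfsg.Agent.ClassicalGeometry.OmegaIndex
import Cfsg.Agent.ClassicalGeometry.OrthDickson

/-!
# S5714 [C4]: the bounds for orthogonal groups
-/

set_option autoImplicit false

open Cfsg Polynomial Module Cfsg.Agent.H141.Rg QuadraticMap
open Cfsg.Agent.ClassicalGeometry

namespace Cfsg.Agent.H156.Rg

section

variable {ι : Type} [Fintype ι] [DecidableEq ι] {F : Type} [Field F] (Q : QuadraticForm F (ι → F))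

theorem isoAct_Q (x : isometryGroup F ⇑Q) (v : ι → F) : Q (isoAct F (⇑Q) x v) = Q v := x.2 v v

theorem exists_iso (g : (ι → F) ≃ₗ[F] (ι → F)) (hg : ∀ v, Q (g v) = Q v) :
    ∃ y : isometryGroup F ⇑Q, ∀ v, isoAct F (⇑Q) y v = g v := by
  let A : Matrix.GeneralLinearGroup ι F :=
    ⟨LinearMap.toMatrix' g.toLinearMap, LinearMap.toMatrix' g.symm.toLinearMap, by
      rw [← LinearMap.toMatrix'_mul]
      have : (g.toLinearMap * g.symm.toLinearMap : (ι → F) →ₗ[F] (ι → F)) = 1 := by
        ext v : 1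
        exact LinearMap.ext fun w => by simp
      rw [this, LinearMap.toMatrix'_one], by
      rw [← LinearMap.toMatrix'_mul]
      have : (g.symm.toLinearMap * g.toLinearMap : (ι → F) →ₗ[F] (ι → F)) = 1 := by
        ext v : 1
        exact LinearMap.ext fun w => by simp
      rw [this, LinearMap.toMatrix'_one]⟩
  have hA : ∀ v, (A : Matrix ι ι F).mulVec v = g v := by
    intro v
    change (LinearMap.toMatrix' g.toLinearMap).mulVec v = _
    rw [← Matrix.toLin'_apply, Matrix.toLin'_toMatrix']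
    rfl
  refine ⟨⟨A, fun u _ => ?_⟩, hA⟩
  change Q ((A : Matrix ι ι F).mulVec u) = Q u
  rw [hA, hg]

/-- the polar form along an orbit -/
noncomputable def bb (x : isometryGroup F ⇑Q) (v : ι → F) (k : ℤ) : F := polarBilin Q v (isoAct F (⇑Q) (x ^ k) v)

variable {Q}

theorem polar_iso (x : isometryGroup F ⇑Q) (u v : ι → F) :
    polarBilin Q (isoAct F (⇑Q) x u) (isoAct F (⇑Q) x v) = polarBilin Q u v :=
  WittQuad.polar_map Q (isoAct F (⇑Q) x) (map_add _) (isoAct_Q Q x) u v

theorem bb_shift (x : isometryGroup F ⇑Q) (v : ι → F) (i j : ℤ) :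
    polarBilin Q (isoAct F (⇑Q) (x ^ i) v) (isoAct F (⇑Q) (x ^ j) v) = bb Q x v (j - i) := by
  rw [← polar_iso (x ^ (-i))]
  rw [← Module.End.mul_apply, ← Module.End.mul_apply, ← map_mul, ← map_mul, ← zpow_add, ← zpow_add, neg_add_cancel,
    zpow_zero, map_one, Module.End.one_apply, neg_add_eq_sub]
  rfl

theorem bb_neg (x : isometryGroup F ⇑Q) (v : ι → F) (k : ℤ) : bb Q x v (-k) = bb Q x v k := by
  have h1 := bb_shift x v k 0
  rw [zero_sub] at h1
  rw [← h1, WittQuad.polar_comm']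
  have h2 := bb_shift x v 0 k
  rw [sub_zero] at h2
  exact h2

theorem bb_zero (x : isometryGroup F ⇑Q) (v : ι → F) : bb Q x v 0 = 2 * Q v := by
  rw [bb, zpow_zero, map_one, Module.End.one_apply, WittQuad.polar_self']

theorem bb_rec {x : isometryGroup F ⇑Q} {v : ι → F} {g : F[X]} (h : Ann (isoAct F (⇑Q) x) v g) :
    aeval (shf F) g (bb Q x v) = 0 := by
  funext k
  rw [aeval_shf, Pi.zero_apply]
  have h1 : aeval (isoAct F (⇑Q) x) g v = 0 := (h g).2 dvd_rfl
  rw [aeval_apply_sum] at h1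
  have h2 := congrArg (polarBilin Q (isoAct F (⇑Q) (x ^ (-k)) v)) h1
  rw [map_sum, map_zero] at h2
  rw [← h2]
  refine Finset.sum_congr rfl fun i _ => ?_
  rw [map_smul, smul_eq_mul, ← map_pow, ← zpow_natCast, bb_shift]
  congr 2
  ring

/-- Witt's theorem for orbits -/
theorem witt (hQ : (polarBilin Q).Nondegenerate) {g : F[X]} {x x' : isometryGroup F ⇑Q} {v v' : ι → F}
    (h : Ann (isoAct F (⇑Q) x) v g) (h' : Ann (isoAct F (⇑Q) x') v' g) (h1 : Q v = Q v') (h2 : bb Q x v = bb Q x' v') :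
    ∃ y : isometryGroup F ⇑Q, ∀ i < g.natDegree,
      isoAct F (⇑Q) y ((isoAct F (⇑Q) x ^ i) v) = (isoAct F (⇑Q) x' ^ i) v' := by
  obtain ⟨e, he1, he2⟩ := WittQuad.extend_family Q hQ g.natDegree _ _ (linInd h) (linInd h')
    (fun i => by rw [← map_pow, ← map_pow, isoAct_Q, isoAct_Q, h1])
    (fun i j => by
      rw [← map_pow, ← map_pow, ← map_pow, ← map_pow, ← zpow_natCast, ← zpow_natCast, ← zpow_natCast, ← zpow_natCast,
        bb_shift, bb_shift, h2])
  obtain ⟨y, hy⟩ := exists_iso Q e he1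
  exact ⟨y, fun i hi => by rw [hy]; exact he2 ⟨i, hi⟩⟩

/-- in characteristic two the value `Q v` is determined -/
theorem Q_eq (h2 : (2 : F) = 0) {g : F[X]} (hg : g.eval 1 ≠ 0) {x x' : isometryGroup F ⇑Q} {v v' : ι → F}
    (h : Ann (isoAct F (⇑Q) x) v g) (h' : Ann (isoAct F (⇑Q) x') v' g) (hb : bb Q x v = bb Q x' v') : Q v = Q v' := by
  have hB : ∀ f1 f2 : F[X], polarBilin Q (aeval (isoAct F (⇑Q) x) f1 v) (aeval (isoAct F (⇑Q) x) f2 v) =
      polarBilin Q (aeval (isoAct F (⇑Q) x') f1 v') (aeval (isoAct F (⇑Q) x') f2 v') := by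
    intro f1 f2
    induction f1 using Polynomial.induction_on' with
    | add p q hp hq =>
      rw [map_add, map_add, LinearMap.add_apply, LinearMap.add_apply, map_add, map_add, LinearMap.add_apply,
        LinearMap.add_apply, hp, hq]
    | monomial i a =>
      induction f2 using Polynomial.induction_on' with
      | add p q hp hq =>
        rw [map_add, map_add, LinearMap.add_apply, LinearMap.add_apply, map_add, map_add, hp, hq]
      | monomial j c =>
        rw [aeval_monomial, aeval_monomial, aeval_monomial, aeval_monomial, Module.End.mul_apply, Module.End.mul_apply,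
          Module.End.mul_apply, Module.End.mul_apply, Module.algebraMap_end_apply, Module.algebraMap_end_apply,
          Module.algebraMap_end_apply, Module.algebraMap_end_apply, map_smul, map_smul, map_smul, map_smul,
          LinearMap.smul_apply, LinearMap.smul_apply, ← map_pow, ← map_pow, ← map_pow, ← map_pow, ← zpow_natCast,
          ← zpow_natCast, ← zpow_natCast, ← zpow_natCast, bb_shift, bb_shift, hb]
  have hD : ∀ f : F[X], Q (aeval (isoAct F (⇑Q) x) f v) - Q (aeval (isoAct F (⇑Q) x') f v') =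
      (f.eval 1) ^ 2 * (Q v - Q v') := by
    intro f
    induction f using Polynomial.induction_on' with
    | add p q hp hq =>
      rw [map_add, map_add, LinearMap.add_apply, LinearMap.add_apply, WittQuad.form_add, WittQuad.form_add, hB, eval_add]
      have : (p.eval 1 + q.eval 1) ^ 2 = p.eval 1 ^ 2 + q.eval 1 ^ 2 := by
        linear_combination (p.eval 1 * q.eval 1) * h2
      rw [this, add_mul, ← hp, ← hq]
      ring
    | monomial i a =>
      rw [aeval_monomial, aeval_monomial, Module.End.mul_apply, Module.End.mul_apply, Module.algebraMap_end_apply,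
        Module.algebraMap_end_apply, WittQuad.form_smul, WittQuad.form_smul, ← map_pow, ← map_pow, isoAct_Q, isoAct_Q,
        eval_monomial, one_pow]
      ring
  have h3 := hD g
  rw [(h g).2 dvd_rfl, (h' g).2 dvd_rfl, map_zero, sub_self] at h3
  exact sub_eq_zero.1 ((mul_eq_zero.1 h3.symm).resolve_left (pow_ne_zero 2 hg))

/-- the difference sequence -/
theorem diff_symm (x x' : isometryGroup F ⇑Q) (v v' : ι → F) (k : ℤ) :
    (bb Q x v - bb Q x' v') (-k) = (bb Q x v - bb Q x' v') k := by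
  rw [Pi.sub_apply, Pi.sub_apply, bb_neg, bb_neg]

variable (Q)

/-- counting with a separating function -/
theorem card_le_of [Finite F] (hQ : (polarBilin Q).Nondegenerate) {g : F[X]} (hg : g.Monic) (m : ℕ)
    (φ : Prs (isoAct F (⇑Q)) g → (Fin m → F))
    (hφ : ∀ p p', φ p = φ p' → Q p.1.2 = Q p'.1.2 ∧ bb Q p.1.1 p.1.2 = bb Q p'.1.1 p'.1.2) :
    (Nat.card (Prs (isoAct F (⇑Q)) g) : ℝ) ≤ (Nat.card F : ℝ) ^ m * Nat.card (isometryGroup F ⇑Q) := by
  have h := card_le hg φ fun p p' hpp => witt hQ p.2 p'.2 (hφ p p' hpp).1 (hφ p p' hpp).2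
  rw [Nat.card_fun, Nat.card_fin] at h
  exact_mod_cast h

/-- `f + 1` parameters suffice if `deg g ≤ 2 f + 1` -/
theorem card_crude [Finite F] (hQ : (polarBilin Q).Nondegenerate) {g : F[X]} (hg : g.Monic) (h0 : g.coeff 0 ≠ 0) (f : ℕ)
    (hf : g.natDegree ≤ 2 * f + 1) :
    (Nat.card (Prs (isoAct F (⇑Q)) g) : ℝ) ≤ (Nat.card F : ℝ) ^ (f + 1) * Nat.card (isometryGroup F ⇑Q) := by
  refine card_le_of Q hQ hg (f + 1) (fun p i => if (i : ℕ) = 0 then Q p.1.2 else bb Q p.1.1 p.1.2 (i : ℕ))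
    fun p p' hpp => ?_
  have hv : Q p.1.2 = Q p'.1.2 := by simpa using congrFun hpp 0
  refine ⟨hv, sub_eq_zero.1 (window_symm h0 (c := bb Q p.1.1 p.1.2 - bb Q p'.1.1 p'.1.2) ?_ (diff_symm _ _ _ _) f hf ?_)⟩
  · rw [map_sub, bb_rec p.2, bb_rec p'.2, sub_zero]
  · intro i hi
    rw [Pi.sub_apply, sub_eq_zero]
    rcases Nat.eq_zero_or_pos i with rfl | hi0
    · rw [Nat.cast_zero, bb_zero, bb_zero, hv]
    · have := congrFun hpp ⟨i, by omega⟩
      simpa [hi0.ne'] using this

/-- the bound for `(X - a) ^ 2`, characteristic not two -/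
theorem card_two [Finite F] (hQ : (polarBilin Q).Nondegenerate) (h2 : (2 : F) ≠ 0) {a : F} (ha : a = 1 ∨ a = -1) :
    (Nat.card (Prs (isoAct F (⇑Q)) ((Polynomial.X - C a) ^ 2)) : ℝ) ≤
      (Nat.card F : ℝ) ^ 1 * Nat.card (isometryGroup F ⇑Q) := by
  have ha2 : a * a = 1 := by rcases ha with rfl | rfl <;> ring
  have hg : ((Polynomial.X - C a) ^ 2 : F[X]).Monic := (monic_X_sub_C a).pow 2
  refine card_le_of Q hQ hg 1 (fun p _ => Q p.1.2) fun p p' hpp => ?_
  have hv : Q p.1.2 = Q p'.1.2 := congrFun hpp 0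
  set c := bb Q p.1.1 p.1.2 - bb Q p'.1.1 p'.1.2 with hc
  have hcr : aeval (shf F) ((Polynomial.X - C a) ^ 2 : F[X]) c = 0 := by
    rw [hc, map_sub, bb_rec p.2, bb_rec p'.2, sub_zero]
  have hcs : ∀ k, c (-k) = c k := diff_symm _ _ _ _
  have hc0 : c 0 = 0 := by rw [hc, Pi.sub_apply, bb_zero, bb_zero, hv, sub_self]
  have hc1 : c 1 = 0 := by
    have h := congrFun hcr (-1)
    rw [pow_two, map_mul, Module.End.mul_apply, map_sub, aeval_X, aeval_C, LinearMap.sub_apply, LinearMap.sub_apply,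
      Module.algebraMap_end_apply, Module.algebraMap_end_apply, Pi.sub_apply, Pi.smul_apply, Pi.sub_apply, Pi.smul_apply,
      map_sub, map_smul] at h
    have e1 : ∀ b : ℤ → F, ∀ k : ℤ, shf F b k = b (k + 1) := fun b k => rfl
    simp only [Pi.sub_apply, Pi.smul_apply, e1, smul_eq_mul, Pi.zero_apply] at h
    rw [show (-1 : ℤ) + 1 + 1 = 1 by norm_num, show (-1 : ℤ) + 1 = 0 by norm_num, hc0, hcs 1] at h
    have h3 : 2 * c 1 = 0 := by linear_combination h - c 1 * ha2
    exact (mul_eq_zero.1 h3).resolve_left h2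
  refine ⟨hv, sub_eq_zero.1 (window_symm (f := 1) ?_ hcr hcs ?_ ?_)⟩
  · rw [coeff_zero_eq_eval_zero, eval_pow, eval_sub, eval_X, eval_C, zero_sub, neg_sq, pow_two, ha2]
    exact one_ne_zero
  · rw [natDegree_pow, natDegree_X_sub_C]
    norm_num
  · intro i hi
    interval_cases i
    · exact hc0
    · exact hc1

theorem pow_le_sqrt (q : ℝ) (hq : 1 ≤ q) {f e : ℕ} (h : 2 * f ≤ e) : q ^ f ≤ Real.sqrt (q ^ e) := by
  apply Real.le_sqrt_of_sq_le
  rw [← pow_mul]
  exact pow_le_pow_right₀ hq (by omega)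

theorem card_F_pos (F : Type) [Field F] [Finite F] : (1 : ℝ) ≤ Nat.card F := by
  exact_mod_cast Nat.card_pos (α := F)

theorem ne_zero_pm {a : F} (ha : a = 1 ∨ a = -1) (j : ℕ) : ((Polynomial.X - C a) ^ j : F[X]).coeff 0 ≠ 0 := by
  rw [coeff_zero_eq_eval_zero, eval_pow, eval_sub, eval_X, eval_C, zero_sub]
  apply pow_ne_zero
  rcases ha with rfl | rfl <;> norm_num

/-- the bound prime to `X ^ 2 - 1` -/
theorem card_main [Finite F] (hQ : (polarBilin Q).Nondegenerate) {g : F[X]} (hg : g.Monic) (h0 : g.coeff 0 ≠ 0)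
    (hc : IsCoprime g (Polynomial.X ^ 2 - 1)) :
    (Nat.card (Prs (isoAct F (⇑Q)) g) : ℝ) ≤
      Real.sqrt ((Nat.card F : ℝ) ^ ed (RingHom.id F) g) * Nat.card (isometryGroup F ⇑Q) := by
  classical
  have hed : ed (RingHom.id F) g = (EuclideanDomain.gcd g g.reverse).natDegree := by
    rw [ed, str, Polynomial.map_id]
  obtain ⟨hh0, hpal, f, hf⟩ := gcd_pal h0 hc
  set h := EuclideanDomain.gcd g g.reverse with hh
  have hrec : ∀ p : Prs (isoAct F (⇑Q)) g, aeval (shf F) h (bb Q p.1.1 p.1.2) = 0 := fun p =>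
    aeval_gcd (bb_rec p.2) (aeval_reverse (bb_rec p.2) (bb_neg _ _))
  have hrec' : ∀ p p' : Prs (isoAct F (⇑Q)) g, aeval (shf F) h (bb Q p.1.1 p.1.2 - bb Q p'.1.1 p'.1.2) = 0 :=
    fun p p' => by rw [map_sub, hrec, hrec, sub_zero]
  have hfin : (Nat.card (Prs (isoAct F (⇑Q)) g) : ℝ) ≤ (Nat.card F : ℝ) ^ f * Nat.card (isometryGroup F ⇑Q) := by
    by_cases h2 : (2 : F) = 0
    · refine card_le_of Q hQ hg f (fun p i => bb Q p.1.1 p.1.2 ((i : ℕ) + 1)) fun p p' hpp => ?_
      have hb : bb Q p.1.1 p.1.2 = bb Q p'.1.1 p'.1.2 := by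
        refine sub_eq_zero.1 (window_symm hh0 (hrec' p p') (diff_symm _ _ _ _) f (by omega) fun i hi => ?_)
        rw [Pi.sub_apply, sub_eq_zero]
        rcases Nat.eq_zero_or_pos i with rfl | hi0
        · rw [Nat.cast_zero, bb_zero, bb_zero, h2, zero_mul, zero_mul]
        · have := congrFun hpp ⟨i - 1, by omega⟩
          simp only at this
          rwa [Nat.cast_sub hi0, Nat.cast_one, sub_add_cancel] at this
      refine ⟨Q_eq h2 ?_ p.2 p'.2 hb, hb⟩
      intro e
      obtain ⟨u, w, huw⟩ := hc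
      have h1 := congrArg (Polynomial.eval 1) huw
      rw [eval_add, eval_mul, eval_mul, e, eval_sub, eval_pow, eval_X, eval_one] at h1
      simp at h1
    · refine card_le_of Q hQ hg f (fun p i => bb Q p.1.1 p.1.2 (i : ℕ)) fun p p' hpp => ?_
      have hb : bb Q p.1.1 p.1.2 = bb Q p'.1.1 p'.1.2 := by
        have hlt : ∀ i : ℕ, i < f → (bb Q p.1.1 p.1.2 - bb Q p'.1.1 p'.1.2) i = 0 := by
          intro i hi
          rw [Pi.sub_apply, sub_eq_zero]
          exact congrFun hpp ⟨i, hi⟩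
        rcases Nat.eq_zero_or_pos f with rfl | hf0
        · refine sub_eq_zero.1 (eq_zero_of_window hh0 (hrec' p p') 0 fun i hi => ?_)
          omega
        · refine sub_eq_zero.1 (window_symm hh0 (hrec' p p') (diff_symm _ _ _ _) f (by omega) fun i hi => ?_)
          rcases hi.lt_or_eq with hi | rfl
          · exact hlt i hi
          · -- the middle equation
            set c := bb Q p.1.1 p.1.2 - bb Q p'.1.1 p'.1.2 with hcdef
            have hcs : ∀ k, c (-k) = c k := diff_symm _ _ _ _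
            have h1 : aeval (shf F) h c (-(i : ℤ)) = 0 := by rw [hrec' p p']; rfl
            obtain ⟨m, hm⟩ : ∃ m, h.natDegree = m + 1 := ⟨2 * i - 1, by omega⟩
            rw [aeval_shf, Finset.sum_range_succ, hm, Finset.sum_range_succ'] at h1
            rw [Finset.sum_eq_zero, zero_add, ← hm] at h1
            · rw [Nat.cast_zero, add_zero, hcs, show -(i : ℤ) + (h.natDegree : ℤ) = (i : ℤ) by omega] at h1
              have h3 : h.coeff h.natDegree = h.coeff 0 := by
                conv_rhs => rw [← hpal]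
                rw [coeff_zero_reverse, coeff_natDegree]
              rw [h3] at h1
              have h4 : (2 * h.coeff 0) * c i = 0 := by linear_combination h1
              exact (mul_eq_zero.1 h4).resolve_left (mul_ne_zero h2 hh0)
            · intro j hj
              have hj' := Finset.mem_range.1 hj
              have h5 : c (-(i : ℤ) + ((j + 1 : ℕ) : ℤ)) = 0 := by
                rcases le_total i (j + 1) with h6 | h6
                · have := hlt (j + 1 - i) (by omega)
                  rwa [Nat.cast_sub h6, ← neg_add_eq_sub] at this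
                · have := hlt (i - (j + 1)) (by omega)
                  rw [Nat.cast_sub h6] at this
                  rw [← hcs, ← this]
                  congr 1
                  ring
              rw [h5, mul_zero]
      refine ⟨?_, hb⟩
      have := congrFun hb 0
      rw [bb_zero, bb_zero] at this
      exact mul_left_cancel₀ h2 this
  refine hfin.trans (mul_le_mul_of_nonneg_right ?_ (Nat.cast_nonneg _))
  rw [hed, hf]
  exact pow_le_sqrt _ (card_F_pos F) (by omega)

end

/-- **[C4], the full isometry group.** -/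
theorem el_o {ι : Type} [Fintype ι] [DecidableEq ι] (F : Type) [Field F] [Finite F] (Q : QuadraticForm F (ι → F))
    (hQ : (QuadraticMap.polarBilin Q).Nondegenerate) :
    EL (RingHom.id F) (isoAct F Q) (Polynomial.X ^ 2 - 1) (fun _ => 1) ∧ ELpm (isoAct F Q) (fun _ => 1) ∧
      ELsh (isoAct F Q) 1 := by
  refine ⟨fun g hg h0 hc => ?_, fun j a hj ha => ?_, fun a ha => ⟨?_, ?_, fun h2 => ?_⟩⟩
  · rw [one_mul]
    exact card_main Q hQ hg h0 hc
  · rw [one_mul]
    have h := card_crude Q hQ ((monic_X_sub_C a).pow j) (ne_zero_pm ha j) (j / 2)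
      (by rw [natDegree_pow, natDegree_X_sub_C]; omega)
    refine h.trans (mul_le_mul_of_nonneg_right ?_ (Nat.cast_nonneg _))
    rw [pow_succ']
    exact mul_le_mul_of_nonneg_left (pow_le_sqrt _ (card_F_pos F) (by omega)) (Nat.cast_nonneg _)
  · have h := card_crude Q hQ (monic_X_sub_C a) (by simpa using ne_zero_pm ha 1) 0 (by rw [natDegree_X_sub_C])
    simpa using h
  · have h := card_crude Q hQ ((monic_X_sub_C a).pow 3) (ne_zero_pm ha 3) 1
      (by rw [natDegree_pow, natDegree_X_sub_C])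
    simpa using h
  · have h := card_two Q hQ h2 ha
    simpa using h

/-- a subgroup of bounded index -/
theorem card_sub {K V Γ : Type*} [Field K] [AddCommGroup V] [Module K V] [Finite V] [Group Γ] [Finite Γ]
    (τ : Γ →* (V →ₗ[K] V)) (H : Subgroup Γ) (hH : H.index ≤ 4) {g : K[X]} {B : ℝ} (hB : 0 ≤ B)
    (h : (Nat.card (Prs τ g) : ℝ) ≤ B * Nat.card Γ) :
    (Nat.card (Prs (τ.comp H.subtype) g) : ℝ) ≤ (4 * B) * Nat.card H := by
  have h1 : Nat.card (Prs (τ.comp H.subtype) g) ≤ Nat.card (Prs τ g) := by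
    refine Nat.card_le_card_of_injective (fun p => ⟨((p.1.1 : Γ), p.1.2), p.2⟩) ?_
    intro p p' hpp
    have h2 : ((p.1.1 : Γ), p.1.2) = ((p'.1.1 : Γ), p'.1.2) := congrArg Subtype.val hpp
    exact Subtype.ext (Prod.ext (Subtype.ext (Prod.mk.inj h2).1) (Prod.mk.inj h2).2)
  have h2 : (Nat.card Γ : ℝ) ≤ 4 * Nat.card H := by
    rw [← Subgroup.card_mul_index H]
    have : ((H.index : ℕ) : ℝ) ≤ 4 := by exact_mod_cast hH
    push_cast
    nlinarith [Nat.cast_nonneg (α := ℝ) (Nat.card H)]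
  have h3 : (Nat.card (Prs (τ.comp H.subtype) g) : ℝ) ≤ Nat.card (Prs τ g) := by exact_mod_cast h1
  calc _ ≤ B * Nat.card Γ := h3.trans h
    _ ≤ B * (4 * Nat.card H) := mul_le_mul_of_nonneg_left h2 hB
    _ = _ := by ring

/-- **[C4], the group `Ω`.** -/
theorem el_om {ι : Type} [Fintype ι] [DecidableEq ι] (F : Type) [Field F] [Finite F] (Q : QuadraticForm F (ι → F))
    (hQ : (QuadraticMap.polarBilin Q).Nondegenerate) (h3 : 6 ≤ Fintype.card ι) :
    EL (RingHom.id F) (omAct F Q) (Polynomial.X ^ 2 - 1) (fun _ => 4) ∧ ELpm (omAct F Q) (fun _ => 4) ∧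
      ELsh (omAct F Q) 4 := by
  have hidx : (Omega F ⇑Q).index ≤ 4 := by
    have hne : Nonempty ι := Fintype.card_pos_iff.1 (by omega)
    by_cases h2 : (2 : F) = 0
    · have h := OrthDickson.index_commutator_two Q h2 hQ (Or.inr (by omega))
      exact h.le.trans (by norm_num)
    · exact (OmegaIndex.index_Omega h2 (by omega) Q hQ).le
  obtain ⟨h1, h2, h4⟩ := el_o F Q hQ
  have hF := card_F_pos F
  have hF0 : (0 : ℝ) ≤ Nat.card F := Nat.cast_nonneg _
  refine ⟨fun g hg h0 hc => ?_, fun j a hj ha => ?_, fun a ha => ⟨?_, ?_, fun h5 => ?_⟩⟩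
  · have h := h1 g hg h0 hc
    rw [one_mul] at h
    exact card_sub (isoAct F ⇑Q) (Omega F ⇑Q) hidx (Real.sqrt_nonneg _) h
  · have h := h2 j a hj ha
    rw [one_mul] at h
    exact card_sub (isoAct F ⇑Q) (Omega F ⇑Q) hidx (mul_nonneg hF0 (Real.sqrt_nonneg _)) h
  · have h := (h4 a ha).1
    rw [one_mul] at h
    exact card_sub (isoAct F ⇑Q) (Omega F ⇑Q) hidx hF0 h
  · have h := (h4 a ha).2.1
    rw [one_mul] at h
    exact card_sub (isoAct F ⇑Q) (Omega F ⇑Q) hidx (pow_nonneg hF0 2) h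
  · have h := (h4 a ha).2.2 h5
    rw [one_mul] at h
    exact card_sub (isoAct F ⇑Q) (Omega F ⇑Q) hidx hF0 h

end Cfsg.Agent.H156.Rg
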