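import Cfsg.Agent.H156.Rg.Cnt

/-!
# S5714: symmetric linear recurrences
-/

set_option autoImplicit false

open Cfsg Polynomial Module Cfsg.Agent.H141.Rg

namespace Cfsg.Agent.H156.Rg

section rec

variable {F : Type*} [Field F]

/-- the shift of sequences -/
def shf (F : Type*) [Field F] : (ℤ → F) →ₗ[F] (ℤ → F) := LinearMap.funLeft F F fun k : ℤ => k + 1

theorem shf_pow (i : ℕ) (b : ℤ → F) (k : ℤ) : ((shf F) ^ i) b k = b (k + i) := by
  induction i generalizing b k with
  | zero => simp
  | succ i ih =>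
    rw [pow_succ, Module.End.mul_apply, ih]
    change b (k + i + 1) = _
    congr 1
    push_cast
    ring

theorem aeval_shf (f : F[X]) (b : ℤ → F) (k : ℤ) :
    aeval (shf F) f b k = ∑ i ∈ Finset.range (f.natDegree + 1), f.coeff i * b (k + i) := by
  rw [aeval_apply_sum, Finset.sum_apply]
  refine Finset.sum_congr rfl fun i _ => ?_
  rw [Pi.smul_apply, shf_pow, smul_eq_mul]

/-- a sequence annihilated by `h` (`h(0) ≠ 0`) which vanishes on a window of length `deg h` is zero -/
theorem eq_zero_of_window {h : F[X]} (h0 : h.coeff 0 ≠ 0) {c : ℤ → F} (hc : aeval (shf F) h c = 0) (k0 : ℤ)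
    (hw : ∀ i : ℕ, i < h.natDegree → c (k0 + i) = 0) : c = 0 := by
  have hne : h ≠ 0 := by rintro rfl; exact h0 (coeff_zero 0)
  have hlc : h.coeff h.natDegree ≠ 0 := by
    rw [coeff_natDegree]
    exact leadingCoeff_ne_zero.2 hne
  have hrec : ∀ k : ℤ, ∑ i ∈ Finset.range (h.natDegree + 1), h.coeff i * c (k + i) = 0 := fun k => by
    rw [← aeval_shf, hc]; rfl
  -- forward
  have hf : ∀ m : ℕ, c (k0 + m) = 0 := by
    intro m
    induction m using Nat.strong_induction_on with
    | _ m ih =>
      rcases lt_or_ge m h.natDegree with hm | hm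
      · exact hw m hm
      · have h1 := hrec (k0 + (m - h.natDegree : ℕ))
        rw [Finset.sum_range_succ, Finset.sum_eq_zero, zero_add] at h1
        · have h2 := (mul_eq_zero.1 h1).resolve_left hlc
          rw [← h2]
          congr 1
          push_cast [Nat.cast_sub hm]
          ring
        · intro i hi
          have hi' := Finset.mem_range.1 hi
          have h2 := ih (m - h.natDegree + i) (by omega)
          rw [show k0 + ((m - h.natDegree : ℕ) : ℤ) + (i : ℤ) = k0 + ((m - h.natDegree + i : ℕ) : ℤ) by push_cast; ring, h2,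
            mul_zero]
  -- backward
  have hb : ∀ m : ℕ, ∀ i : ℕ, c (k0 - m + i) = 0 := by
    intro m
    induction m with
    | zero => intro i; simpa using hf i
    | succ m ih =>
      intro i
      rcases Nat.eq_zero_or_pos i with rfl | hi
      · have h1 := hrec (k0 - (m + 1 : ℕ))
        rw [Finset.sum_range_succ', Finset.sum_eq_zero, zero_add] at h1
        · exact (mul_eq_zero.1 h1).resolve_left h0
        · intro j _
          rw [show k0 - ((m + 1 : ℕ) : ℤ) + ((j + 1 : ℕ) : ℤ) = k0 - (m : ℤ) + (j : ℤ) by push_cast; ring, ih, mul_zero]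
      · obtain ⟨j, rfl⟩ := Nat.exists_eq_succ_of_ne_zero hi.ne'
        rw [show k0 - ((m + 1 : ℕ) : ℤ) + ((j.succ : ℕ) : ℤ) = k0 - (m : ℤ) + (j : ℤ) by push_cast; ring]
        exact ih j
  funext k
  rcases le_total k0 k with hk | hk
  · have := hf (k - k0).toNat
    rwa [Int.toNat_of_nonneg (by omega), add_sub_cancel] at this
  · have := hb (k0 - k).toNat 0
    rwa [Int.toNat_of_nonneg (by omega), Nat.cast_zero, add_zero, sub_sub_cancel] at this

theorem window_symm {h : F[X]} (h0 : h.coeff 0 ≠ 0) {c : ℤ → F} (hc : aeval (shf F) h c = 0) (hs : ∀ k, c (-k) = c k)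
    (f : ℕ) (hf : h.natDegree ≤ 2 * f + 1) (hw : ∀ i : ℕ, i ≤ f → c i = 0) : c = 0 := by
  refine eq_zero_of_window h0 hc (-(f : ℤ)) fun i hi => ?_
  rcases le_total f i with h1 | h1
  · have := hw (i - f) (by omega)
    rwa [Nat.cast_sub h1, ← neg_add_eq_sub] at this
  · have := hw (f - i) (by omega)
    rw [Nat.cast_sub h1] at this
    rw [← hs, ← this]
    congr 1
    ring

theorem aeval_reverse {g : F[X]} {b : ℤ → F} (hb : aeval (shf F) g b = 0) (hs : ∀ k, b (-k) = b k) :
    aeval (shf F) g.reverse b = 0 := by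
  funext k
  rw [Pi.zero_apply]
  have key : ∑ i ∈ Finset.range (g.natDegree + 1), g.reverse.coeff i * b (k + i) = 0 := by
    have h1 : aeval (shf F) g b (-k - g.natDegree) = 0 := by rw [hb]; rfl
    rw [aeval_shf, ← Finset.sum_range_reflect] at h1
    rw [← h1]
    refine Finset.sum_congr rfl fun i hi => ?_
    have hi' : i ≤ g.natDegree := Nat.lt_succ_iff.1 (Finset.mem_range.1 hi)
    rw [coeff_reverse, revAt_le hi', ← hs]
    rw [show g.natDegree + 1 - 1 - i = g.natDegree - i by omega]
    congr 2
    push_cast [Nat.cast_sub hi']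
    ring
  rw [aeval_shf]
  rw [← key]
  apply Finset.sum_subset
  · intro i hi
    rw [Finset.mem_range] at hi ⊢
    have := reverse_natDegree_le g
    omega
  · intro i _ hi
    rw [Finset.mem_range, not_lt] at hi
    rw [coeff_eq_zero_of_natDegree_lt (by omega), zero_mul]

theorem aeval_gcd [DecidableEq F[X]] {g h : F[X]} {b : ℤ → F} (hg : aeval (shf F) g b = 0) (hh : aeval (shf F) h b = 0) :
    aeval (shf F) (EuclideanDomain.gcd g h) b = 0 := by
  rw [EuclideanDomain.gcd_eq_gcd_ab g h, map_add, mul_comm g, mul_comm h, map_mul, map_mul, LinearMap.add_apply,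
    Module.End.mul_apply, Module.End.mul_apply, hg, hh, map_zero, map_zero, add_zero]

theorem reverse_reverse {g : F[X]} (h0 : g.coeff 0 ≠ 0) : g.reverse.reverse = g := by
  have hd : g.reverse.natDegree = g.natDegree := by
    rw [reverse_natDegree, natTrailingDegree_eq_zero.2 (Or.inr h0), Nat.sub_zero]
  ext n
  rw [coeff_reverse, coeff_reverse, hd, revAt_invol]

theorem reverse_eval_one (g : F[X]) : g.reverse.eval 1 = g.eval 1 := by
  let _ : Invertible (1 : F) := invertibleOne
  have h := eval₂_reverse_mul_pow (RingHom.id F) (1 : F) g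
  rw [invOf_one, one_pow, mul_one] at h
  exact h

/-- the greatest common divisor of `g` and its reciprocal is palindromic of even degree -/
theorem gcd_pal [DecidableEq F[X]] {g : F[X]} (h0 : g.coeff 0 ≠ 0) (hc : IsCoprime g (Polynomial.X ^ 2 - 1)) :
    (EuclideanDomain.gcd g g.reverse).coeff 0 ≠ 0 ∧
      (EuclideanDomain.gcd g g.reverse).reverse = EuclideanDomain.gcd g g.reverse ∧
      Even (EuclideanDomain.gcd g g.reverse).natDegree := by
  set h := EuclideanDomain.gcd g g.reverse with hh
  have hg : h ∣ g := EuclideanDomain.gcd_dvd_left _ _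
  have hg' : h ∣ g.reverse := EuclideanDomain.gcd_dvd_right _ _
  have hh0 : h.coeff 0 ≠ 0 := by
    obtain ⟨w, hw⟩ := hg
    intro e
    apply h0
    rw [hw, mul_coeff_zero, e, zero_mul]
  have hev : ∀ a : F, a ^ 2 = 1 → h.eval a ≠ 0 := by
    intro a ha e
    obtain ⟨u, w, huw⟩ := hc
    obtain ⟨z, hz⟩ := hg
    have h1 := congrArg (Polynomial.eval a) huw
    rw [eval_add, eval_mul, eval_mul, hz, eval_mul, e, eval_sub, eval_pow, eval_X, ha, eval_one] at h1
    simp at h1
  have hdvd : h.reverse ∣ h := by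
    apply EuclideanDomain.dvd_gcd
    · obtain ⟨w, hw⟩ := hg'
      have := congrArg reverse hw
      rw [reverse_reverse h0, reverse_mul_of_domain] at this
      exact ⟨_, this⟩
    · obtain ⟨w, hw⟩ := hg
      have := congrArg reverse hw
      rw [reverse_mul_of_domain] at this
      exact ⟨_, this⟩
  have hd : h.reverse.natDegree = h.natDegree := by
    rw [reverse_natDegree, natTrailingDegree_eq_zero.2 (Or.inr hh0), Nat.sub_zero]
  have hne : h ≠ 0 := by intro e; exact hh0 (by rw [e, coeff_zero])
  have hpal : h.reverse = h := by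
    obtain ⟨u, hu⟩ := hdvd
    have hune : u ≠ 0 := by rintro rfl; exact hne (by rw [hu, mul_zero])
    have hrne : h.reverse ≠ 0 := by intro e; exact hne (by rw [hu, e, zero_mul])
    have h1 := congrArg natDegree hu
    rw [natDegree_mul hrne hune, hd] at h1
    obtain ⟨c, rfl⟩ := natDegree_eq_zero.1 (show u.natDegree = 0 by omega)
    have h2 := congrArg (Polynomial.eval 1) hu
    rw [eval_mul, eval_C, reverse_eval_one] at h2
    have h3 : c = 1 := by
      have h4 : h.eval 1 * (c - 1) = 0 := by linear_combination -h2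
      exact sub_eq_zero.1 ((mul_eq_zero.1 h4).resolve_left (hev 1 (one_pow 2)))
    rw [h3, C_1, mul_one] at hu
    exact hu.symm
  refine ⟨hh0, hpal, ?_⟩
  by_contra hodd
  rw [Nat.not_even_iff_odd] at hodd
  apply hev (-1) (by norm_num)
  rw [eval_eq_sum_range]
  refine Finset.sum_involution (fun i _ => h.natDegree - i) ?_ ?_ ?_ ?_
  · intro i hi
    have hi' : i ≤ h.natDegree := Nat.lt_succ_iff.1 (Finset.mem_range.1 hi)
    have h1 : h.coeff (h.natDegree - i) = h.coeff i := by
      conv_rhs => rw [← hpal]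
      rw [coeff_reverse, revAt_le hi']
    rw [h1, ← mul_add]
    have h2 : (-1 : F) ^ i + (-1) ^ (h.natDegree - i) = 0 := by
      have h3 : (-1 : F) ^ (h.natDegree - i) * (-1) ^ i = -1 := by
        rw [← pow_add, Nat.sub_add_cancel hi', hodd.neg_one_pow]
      have h4 : ((-1 : F) ^ i) * (-1) ^ i = 1 := by
        rw [← mul_pow]; norm_num
      have h5 : ((-1 : F) ^ i + (-1) ^ (h.natDegree - i)) * (-1) ^ i = 0 := by
        rw [add_mul, h3, h4]; ring
      exact (mul_eq_zero.1 h5).resolve_right (pow_ne_zero _ (by norm_num))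
    rw [h2, mul_zero]
  · intro i hi _ e
    have hi' : i ≤ h.natDegree := Nat.lt_succ_iff.1 (Finset.mem_range.1 hi)
    obtain ⟨m, hm⟩ := hodd
    omega
  · intro i hi
    rw [Finset.mem_range]
    omega
  · intro i hi
    have hi' : i ≤ h.natDegree := Nat.lt_succ_iff.1 (Finset.mem_range.1 hi)
    omega

end rec

end Cfsg.Agent.H156.Rg
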